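import Groth.Agent.CurvesA.NormFinite
import Groth.Agent.Ega4C.NormIntIn
import Groth.Prelude.Def_Pi1
import Groth.Agent.Pi1A.NormalEtale
import Groth.Agent.S0573
import Groth.Agent.S0566
import Mathlib.AlgebraicGeometry.ZariskisMainTheorem
import Mathlib.AlgebraicGeometry.Morphisms.IsIso

/-!
# Normalization of a scheme in a finite étale cover of a normal open subscheme

`Z` locally of finite type over a field `k`, `i : U ⟶ Z` an affine open immersion with `U` integral and
normal, `w : Z' ⟶ U` finite étale.  Then there are `j : Z' ⟶ S'` an open immersion with dense image and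
`ρ : S' ⟶ Z` finite, with `S'` normal and `Z' = S' ×_Z U`.
-/

set_option autoImplicit false

universe u

open CategoryTheory CategoryTheory.Limits AlgebraicGeometry TopologicalSpace

namespace Groth.Agent.An.H526.T3

/-- A field is a Nagata ring. -/
theorem isNagata_field (k : Type u) [Field k] : CAlg.IsNagata k := by
  refine ⟨inferInstance, ?_⟩
  intro p hp L _ _ _ _ hfin
  have hp' : p = ⊥ := by
    rcases Ideal.eq_bot_or_top p with h | h
    · exact h
    · exact absurd h hp.ne_top
  have hmax : p.IsMaximal := by rw [hp']; exact Ideal.bot_isMaximal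
  let : Field (k ⧸ p) := Ideal.Quotient.field p
  have hsurj : Function.Surjective (algebraMap (k ⧸ p) (FractionRing (k ⧸ p))) :=
    IsField.localization_map_bijective (M := nonZeroDivisors (k ⧸ p)) zero_notMem_nonZeroDivisors
      (Field.toIsField (k ⧸ p)) |>.2
  have h1 : Module.Finite (k ⧸ p) (FractionRing (k ⧸ p)) :=
    Module.Finite.of_surjective (Algebra.linearMap (k ⧸ p) (FractionRing (k ⧸ p))) hsurj
  have h2 : Module.Finite (k ⧸ p) L := Module.Finite.trans (FractionRing (k ⧸ p)) L
  exact Module.Finite.of_injective (Subalgebra.val (integralClosure (k ⧸ p) L)).toLinearMap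
    Subtype.val_injective

/-- Sections of a scheme of finite type over a field over affine opens are Nagata rings. -/
theorem isNagata_app {k : Type u} [Field k] {Y : Scheme.{u}} (f : Y ⟶ Spec (CommRingCat.of k))
    [LocallyOfFiniteType f] (U : Y.Opens) (hU : IsAffineOpen U) : CAlg.IsNagata Γ(Y, U) := by
  let φ : k →+* Γ(Y, U) := (f.appLE ⊤ U le_top).hom.comp
    (Scheme.ΓSpecIso (CommRingCat.of k)).inv.hom
  have hφ : φ.FiniteType := by
    refine RingHom.FiniteType.comp ?_ ?_
    · exact f.finiteType_appLE (isAffineOpen_top _) hU _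
    · exact RingHom.FiniteType.of_surjective _
        (Scheme.ΓSpecIso (CommRingCat.of k)).symm.commRingCatIsoToRingEquiv.surjective
  let := φ.toAlgebra
  have : Algebra.FiniteType k Γ(Y, U) := hφ
  exact Groth.Agent.S0566.result k (isNagata_field k) Γ(Y, U)

/-- Sections of a normal scheme over an affine open form a normal ring. -/
theorem isNormalRing_of_isAffineOpen {C : Scheme.{u}} (hC : Pi1.IsNormalScheme C) (V : C.Opens)
    (hV : IsAffineOpen V) : EGA4.IsNormalRing Γ(C, V) := by
  intro p hp
  obtain ⟨h1, h2⟩ := hC (hV.fromSpec ⟨p, hp⟩)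
  let e : C.presheaf.stalk (hV.fromSpec ⟨p, hp⟩) ≃+* Localization.AtPrime p :=
    (asIso (hV.fromSpec.stalkMap ⟨p, hp⟩) ≪≫ Spec.stalkIso Γ(C, V) ⟨p, hp⟩).commRingCatIsoToRingEquiv
  have hd : IsDomain (Localization.AtPrime p) := e.symm.toMulEquiv.isDomain _
  exact ⟨hd, IsIntegrallyClosed.of_equiv e⟩

/-- The local ring at a point of an affine open with normal ring of sections is a normal domain. -/
theorem stalk_of_isNormalRing {C : Scheme.{u}} (V : C.Opens) (hV : IsAffineOpen V)
    (h : EGA4.IsNormalRing Γ(C, V)) (x : C) (hx : x ∈ V) :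
    IsDomain (C.presheaf.stalk x) ∧ IsIntegrallyClosed (C.presheaf.stalk x) := by
  obtain ⟨y, rfl⟩ : ∃ y : Spec Γ(C, V), hV.fromSpec y = x := by
    have : x ∈ hV.fromSpec.opensRange := by rw [hV.opensRange_fromSpec]; exact hx
    exact this
  obtain ⟨h1, h2⟩ := h y.asIdeal
  let e : C.presheaf.stalk (hV.fromSpec y) ≃+* Localization.AtPrime y.asIdeal :=
    (asIso (hV.fromSpec.stalkMap y) ≪≫ Spec.stalkIso Γ(C, V) y).commRingCatIsoToRingEquiv
  have hd : IsDomain (C.presheaf.stalk (hV.fromSpec y)) := e.toMulEquiv.isDomain _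
  exact ⟨hd, IsIntegrallyClosed.of_equiv e.symm⟩

/-- The relative normalization of a scheme in a Noetherian normal scheme affine over it is normal. -/
theorem isNormalScheme_normalization {C X : Scheme.{u}} (hC : Pi1.IsNormalScheme C)
    [IsLocallyNoetherian C] (g : C ⟶ X) [IsAffineHom g] : Pi1.IsNormalScheme g.normalization := by
  intro x
  obtain ⟨_, ⟨U, hU, rfl⟩, hxU, -⟩ :=
    X.isBasis_affineOpens.exists_subset_of_mem_open (Set.mem_univ (g.fromNormalization x)) isOpen_univ
  have hx : x ∈ g.fromNormalization ⁻¹ᵁ U := hxU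
  have hW : IsAffineOpen (g.fromNormalization ⁻¹ᵁ U) := hU.preimage _
  have h1 := Groth.Agent.CurvesA.NormFinite.isIntegrallyClosedIn_toNormalization g U hU
  let alg := (g.toNormalization.app (g.fromNormalization ⁻¹ᵁ U)).hom.toAlgebra
  have hV : IsAffineOpen (g.toNormalization ⁻¹ᵁ (g.fromNormalization ⁻¹ᵁ U)) := hW.preimage _
  have hnoe : IsNoetherianRing Γ(C, g.toNormalization ⁻¹ᵁ (g.fromNormalization ⁻¹ᵁ U)) :=
    IsLocallyNoetherian.component_noetherian ⟨_, hV⟩
  have hnor : EGA4.IsNormalRing Γ(C, g.toNormalization ⁻¹ᵁ (g.fromNormalization ⁻¹ᵁ U)) :=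
    isNormalRing_of_isAffineOpen hC _ hV
  have hnor' : EGA4.IsNormalRing Γ(g.normalization, g.fromNormalization ⁻¹ᵁ U) :=
    Ega4C.NormIntIn.isNormalRing_of_isIntegrallyClosedIn_noetherian _ _ hnor
  exact stalk_of_isNormalRing _ hW hnor' x hx

/-- Normalization in a finite cover of an open: `U ⟶ Z` an affine open immersion, `w : Z' ⟶ U`
finite with `Z'` normal.  Then `Z'` is a dense open of a normal scheme finite over `Z`, cut out by `U`. -/
theorem exists_normalization {k : Type u} [Field k] {Z U Z' : Scheme.{u}}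
    (s : Z ⟶ Spec (CommRingCat.of k)) [LocallyOfFiniteType s] (i : U ⟶ Z) [IsOpenImmersion i]
    [IsAffineHom i] (w : Z' ⟶ U) [IsFinite w] (hZ' : Pi1.IsNormalScheme Z') :
    ∃ (S' : Scheme.{u}) (j : Z' ⟶ S') (ρ : S' ⟶ Z), IsOpenImmersion j ∧ IsDominant j ∧ IsFinite ρ ∧
      Pi1.IsNormalScheme S' ∧ IsPullback j w ρ i := by
  have hZn : IsLocallyNoetherian Z := LocallyOfFiniteType.isLocallyNoetherian s
  let g : Z' ⟶ Z := w ≫ i
  have hZ'n : IsLocallyNoetherian Z' := LocallyOfFiniteType.isLocallyNoetherian g
  have hred : IsReduced Z' := by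
    have : ∀ z : Z', _root_.IsReduced (Z'.presheaf.stalk z) := fun z => by
      have := (hZ' z).1
      infer_instance
    exact isReduced_of_isReduced_stalk _
  have hfin : IsFinite g.fromNormalization :=
    Groth.Agent.CurvesA.NormFinite.isFinite_fromNormalization g (fun V hV S _ _ _ _ =>
      Groth.Agent.S0573.result Γ(Z, V) (isNagata_app s V hV) S)
  have hqf : LocallyQuasiFinite g := inferInstance
  have hio : IsOpenImmersion g.toNormalization := inferInstance
  have hfac : g.toNormalization ≫ g.fromNormalization = w ≫ i := g.toNormalization_fromNormalization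
  refine ⟨g.normalization, g.toNormalization, g.fromNormalization, hio, inferInstance, hfin,
    isNormalScheme_normalization hZ' g, ?_⟩
  -- the pullback
  let l : Z' ⟶ pullback g.fromNormalization i := pullback.lift g.toNormalization w hfac
  have hl1 : l ≫ pullback.fst _ _ = g.toNormalization := pullback.lift_fst _ _ _
  have hl2 : l ≫ pullback.snd _ _ = w := pullback.lift_snd _ _ _
  have h1 : IsOpenImmersion (l ≫ pullback.fst g.fromNormalization i) := by rw [hl1]; exact hio
  have h2 : IsOpenImmersion l := IsOpenImmersion.of_comp l (pullback.fst g.fromNormalization i)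
  have h3 : IsFinite (l ≫ pullback.snd g.fromNormalization i) := by rw [hl2]; infer_instance
  have h4 : IsFinite l := MorphismProperty.of_postcomp (W := @IsFinite) (W' := @IsSeparated) l
    (pullback.snd g.fromNormalization i) inferInstance h3
  have h5 : Surjective l := by
    refine ⟨fun y => ?_⟩
    have hcl : IsClosed (Set.range l) := l.isClosedMap.isClosed_range
    by_contra hy
    have hopen : IsOpen ((Set.range l)ᶜ) := hcl.isOpen_compl
    have hopen' : IsOpen ((pullback.fst g.fromNormalization i) '' (Set.range l)ᶜ) :=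
      (pullback.fst g.fromNormalization i).isOpenEmbedding.isOpenMap _ hopen
    obtain ⟨_, ⟨y', hy', rfl⟩, z, hz⟩ := g.toNormalization.denseRange.inter_open_nonempty _ hopen'
      ⟨_, y, hy, rfl⟩
    rw [← hl1] at hz
    have hz' : (pullback.fst g.fromNormalization i) (l z) =
      (pullback.fst g.fromNormalization i) y' := by
      rw [← hz]; rfl
    exact hy' ⟨z, (pullback.fst g.fromNormalization i).isOpenEmbedding.injective hz'⟩
  have h6 : IsIso l := (isIso_iff_isOpenImmersion_and_surjective l).2 ⟨h2, h5⟩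
  exact IsPullback.of_iso_pullback ⟨hfac⟩ (asIso l) hl1 hl2

/-- The same with `w` finite étale and `U` normal integral. -/
theorem exists_normalization_of_etale {k : Type u} [Field k] {Z U Z' : Scheme.{u}}
    (s : Z ⟶ Spec (CommRingCat.of k)) [LocallyOfFiniteType s] (i : U ⟶ Z) [IsOpenImmersion i]
    [IsAffineHom i] [IsIntegral U] (hU : Pi1.IsNormalScheme U) (w : Z' ⟶ U) [IsFinite w] [Etale w] :
    ∃ (S' : Scheme.{u}) (j : Z' ⟶ S') (ρ : S' ⟶ Z), IsOpenImmersion j ∧ IsDominant j ∧ IsFinite ρ ∧
      Pi1.IsNormalScheme S' ∧ IsPullback j w ρ i :=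
  exists_normalization s i w
    (Groth.Agent.Pi1A.NormalEtale.isDomain_stalk_and_isIntegrallyClosed_stalk hU w)

end Groth.Agent.An.H526.T3
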